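import Cfsg.Agent.Ngrp.Triples
import Cfsg.Agent.Chev.SuzukiCore

/-!
The Bray–Wilson–Wilson sequence of words in two variables does not vanish on a minimal simple
group.
-/

set_option autoImplicit false

namespace Cfsg.Lib.Ngrp

open Subgroup

universe u

variable {G : Type*} [Group G]

/-- One step of the Bray–Wilson–Wilson sequence. -/
def bwwStep (y s : G) : G := (y⁻¹ * s * y) * (s⁻¹) * (y⁻¹ * s * y)⁻¹ * (s⁻¹)⁻¹

/-- The Bray–Wilson–Wilson sequence. -/
def bww (x y : G) (n : ℕ) : G := @Nat.rec (fun _ => G) x (fun _ s => bwwStep y s) n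

theorem bww_succ (x y : G) (n : ℕ) : bww x y (n + 1) = bwwStep y (bww x y n) := rfl

theorem map_bwwStep {G' : Type*} [Group G'] (f : G →* G') (y s : G) :
    f (bwwStep y s) = bwwStep (f y) (f s) := by simp [bwwStep]

theorem map_bww {G' : Type*} [Group G'] (f : G →* G') (x y : G) (n : ℕ) :
    f (bww x y n) = bww (f x) (f y) n := by
  induction n with
  | zero => rfl
  | succ n ih => rw [bww_succ, map_bwwStep, ih, bww_succ]

theorem bww_mem_derivedSeries (x y : G) (n : ℕ) : bww x y n ∈ derivedSeries G n := by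
  induction n with
  | zero => exact mem_top _
  | succ n ih =>
    exact commutator_mem_commutator ((derivedSeries_normal G n).conj_mem' _ ih y) (inv_mem ih)

theorem bww_mem_of_invariant {V : G → Prop} {x y : G} (hx : V x)
    (h : ∀ s, V s → V (bwwStep y s)) (n : ℕ) : V (bww x y n) := by
  induction n with
  | zero => exact hx
  | succ n ih => exact h _ ih

/-- The sequence does not vanish for a suitable pair of elements. -/
def BwwNe (G : Type*) [Group G] : Prop := ∃ x y : G, ∀ n, bww x y n ≠ 1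

theorem BwwNe.of_injective {G' : Type*} [Group G'] (f : G' →* G) (hf : Function.Injective f)
    (h : BwwNe G') : BwwNe G := by
  obtain ⟨x, y, h⟩ := h
  exact ⟨f x, f y, fun n => by rw [← map_bww, Ne, map_eq_one_iff f hf]; exact h n⟩

theorem BwwNe.of_surjective {G' : Type*} [Group G'] (f : G →* G') (hf : Function.Surjective f)
    (h : BwwNe G') : BwwNe G := by
  obtain ⟨x, y, h⟩ := h
  obtain ⟨x, rfl⟩ := hf x
  obtain ⟨y, rfl⟩ := hf y
  exact ⟨x, y, fun n e => h n (by rw [← map_bww, e, map_one])⟩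

theorem bwwStep_mul {y t z : G} (hy : y * y = 1) (ht : t * t = 1) (hz : z * z = 1)
    (hyz : y * z = z * y) : bwwStep y (t * z) =
      ((y * t) ^ 2 * (z * y) * ((y * t) ^ 2)⁻¹) * (z * y) := by
  have h1 : ∀ a, y * (y * a) = a := fun a => by rw [← mul_assoc, hy, one_mul]
  have h2 : ∀ a, z * (z * a) = a := fun a => by rw [← mul_assoc, hz, one_mul]
  have h3 : ∀ a, y * (z * a) = z * (y * a) := fun a => by rw [← mul_assoc, hyz, mul_assoc]
  simp only [bwwStep, sq, mul_inv_rev, inv_inv, inv_eq_of_mul_eq_one_right hy,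
    inv_eq_of_mul_eq_one_right ht, inv_eq_of_mul_eq_one_right hz, mul_assoc, h3, h1, h2, hy,
    mul_one]

section Suzuki

open Cfsg.Lib.Chev

variable {F : Type*} [Field F] [Fintype F] {τ : Tw F} (M : SzModel τ G)

include M in
theorem bwwNe_sz : BwwNe G := by
  have := M.finite
  obtain ⟨l, hl⟩ := M.exists_unit_ne_one
  have hTT : ∀ a b : F, M.T 0 a * M.T 0 b = M.T 0 (a + b) := fun a b => by simp [M.T_mul]
  have hw : M.w • M.inf ≠ M.inf := fun h =>
    M.inf_ne_pt 1 1 (M.eq_of_mem_Pat (fun e => M.inf_ne_pt 0 0 (by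
      rw [← M.w_smul_inf, e, one_smul])) (M.Zat_le_Pat _ M.w_mem_Zat) h)
  refine ⟨M.w * M.T 0 l, M.T 0 1, fun n => ?_⟩
  obtain ⟨t, b, -, ht, -, -, e⟩ := bww_mem_of_invariant (x := M.w * M.T 0 l) (y := M.T 0 1)
    (V := fun s => ∃ (t : G) (b : F), t ^ 2 = 1 ∧ t • M.inf ≠ M.inf ∧ b ≠ 0 ∧ b ≠ 1 ∧
      s = t * M.T 0 b)
    ⟨_, l, (M.mem_Zat.1 M.w_mem_Zat).2, hw, l.ne_zero, fun e => hl (Units.ext e), rfl⟩ (by
      rintro _ ⟨t, b, ht2, ht, hb0, hb1, rfl⟩
      have hb : b + 1 ≠ 0 := fun e => hb1 (τ.add_eq_zero.1 e)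
      obtain ⟨p, hp⟩ := M.exists_mem_Zat_of_sq ht2
      have hodd := M.odd_orderOf_mul (p := M.inf) (p' := p) (u := M.T 0 1)
        (fun e => ht (e ▸ (M.mem_Zat.1 hp).1)) (M.Zat_inf ▸ M.T_mem_Z 1) M.T_zero_one_ne_one hp
        (fun e => ht (by rw [e, one_smul]))
      have hr : (M.T 0 1 * t) ^ 2 ∉ M.B := fun h => ht (M.mem_B.1 ((mul_mem_cancel_left
        (M.P_le_B (M.T_mem_P 0 1))).1 (zpowers_le.2 h
          (mem_zpowers_pow_iff.2 (Nat.coprime_two_left.2 hodd)))))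
      refine ⟨_, b + 1, ?_, fun h => hr ?_, hb, fun e => hb0 (by simpa using e), by
        rw [bwwStep_mul (by rw [← sq, M.T_zero_sq]) (by rw [← sq, ht2]) (by rw [← sq, M.T_zero_sq])
          (by rw [hTT, hTT, add_comm]), hTT]⟩
      · rw [conj_pow, M.T_zero_sq]
        simp
      · rw [mul_smul, mul_smul, smul_eq_iff_eq_inv_smul] at h
        have := M.eq_of_mem_Pat (p := M.inf) (fun e => hb (M.T_eq_one.1 e).2)
          (M.Pat_inf ▸ M.T_mem_P _ _) h
        exact M.mem_B.2 (inv_smul_eq_iff.1 this).symm) n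
  intro h
  rw [e, mul_eq_one_iff_eq_inv] at h
  exact ht (by rw [h, inv_smul_eq_iff, M.T_smul_inf])

end Suzuki

section PSL2

open Cfsg.Lib.Known.GL2 Matrix

variable {F : Type*} [Field F]

theorem bwwStep_w_entries (s : SL2 F) :
    let m := (slLin F).ρ s
    let m' := (slLin F).ρ (bwwStep (slLin F).w s)
    let R := (m 0 0 + m 1 1) ^ 2 + (m 0 1 - m 1 0) ^ 2 - 4
    m' 0 0 + m' 1 1 = 2 + R * (m 0 1 - m 1 0) ^ 2 ∧
      m' 0 1 - m' 1 0 = -((m 0 0 + m 1 1) * (m 0 1 - m 1 0) * R) := by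
  intro m m' R
  have hd : m 0 0 * m 1 1 - m 0 1 * m 1 0 = 1 := det_SL' s
  have hinv : (slLin F).ρ s⁻¹ = !![m 1 1, -m 0 1; -m 1 0, m 0 0] := by
    rw [← bar_SL, Lin2.ρ_bar, adjugate_fin_two]
  have e : m' = (slLin F).ρ (slLin F).w⁻¹ * m * (slLin F).ρ (slLin F).w * (slLin F).ρ s⁻¹ *
      ((slLin F).ρ (slLin F).w⁻¹ * (slLin F).ρ s⁻¹ * (slLin F).ρ (slLin F).w) * m := by
    simp only [m', m, bwwStep, _root_.mul_inv_rev, inv_inv, map_mul, mul_assoc]
  rw [e, hinv, Lin2.ρ_w, Lin2.ρ_w_inv]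
  simp only [mul00, mul01, mul10, mul11, of_apply, cons_val', cons_val_zero, cons_val_one,
    cons_val_fin_one, R]
  constructor
  · linear_combination (2 * (m 0 0 * m 1 1 - m 0 1 * m 1 0) + 2 -
      4 * (m 0 1 - m 1 0) ^ 2) * hd
  · linear_combination (4 * (m 0 0 + m 1 1) * (m 0 1 - m 1 0)) * hd

theorem bwwNe_psl2_of_exists {s : SL2 F} (h1 : (slLin F).ρ s 0 0 + (slLin F).ρ s 1 1 ≠ 0)
    (h2 : (slLin F).ρ s 0 1 - (slLin F).ρ s 1 0 ≠ 0) {R : F}
    (hR : ((slLin F).ρ s 0 0 + (slLin F).ρ s 1 1) ^ 2 +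
      ((slLin F).ρ s 0 1 - (slLin F).ρ s 1 0) ^ 2 - 4 = R) (h3 : R ≠ 0)
    (h4 : ∀ z : F, z ≠ 0 → 2 + R * z ^ 2 ≠ 0) : BwwNe (PSL2 F) := by
  refine ⟨piSL F s, piSL F (slLin F).w, fun n => ?_⟩
  obtain ⟨-, h, -⟩ := bww_mem_of_invariant (x := s) (y := (slLin F).w)
    (V := fun s => (slLin F).ρ s 0 0 + (slLin F).ρ s 1 1 ≠ 0 ∧
      (slLin F).ρ s 0 1 - (slLin F).ρ s 1 0 ≠ 0 ∧ ∃ k : F, k ≠ 0 ∧
      ((slLin F).ρ s 0 0 + (slLin F).ρ s 1 1) ^ 2 +
        ((slLin F).ρ s 0 1 - (slLin F).ρ s 1 0) ^ 2 - 4 = R * k ^ 2)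
    ⟨h1, h2, 1, one_ne_zero, by rw [hR, one_pow, mul_one]⟩ (by
      rintro s ⟨h1, h2, k, hk, e⟩
      obtain ⟨e1, e2⟩ := bwwStep_w_entries s
      rw [e] at e1 e2
      rw [e1, e2]
      refine ⟨by simpa [mul_pow, mul_assoc] using h4 _ (mul_ne_zero hk h2),
        neg_ne_zero.2 (mul_ne_zero (mul_ne_zero h1 h2) (mul_ne_zero h3 (pow_ne_zero 2 hk))),
        _, mul_ne_zero (mul_ne_zero hk h2) (h4 k hk), ?_⟩
      linear_combination (R * k ^ 2 * ((slLin F).ρ s 0 1 - (slLin F).ρ s 1 0)) ^ 2 * e) n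
  rw [← map_bww, Ne, piSL_eq_one_iff, Lin2.mem_Z]
  exact fun hZ => h (by rw [hZ.1, hZ.2.1, sub_self])

theorem exists_not_mem_of_card_lt [Fintype F] [DecidableEq F] {S : Finset F}
    (h : S.card < Fintype.card F) : ∃ a, a ∉ S := by
  by_contra hc
  exact h.not_ge (Finset.card_le_card (s := Finset.univ) fun a _ => not_not.1 fun ha => hc ⟨a, ha⟩)

theorem exists_good_pair [Fintype F] (h2 : (2 : F) ≠ 0) (h4 : 4 ≤ Fintype.card F) :
    ∃ x v : F, x ≠ 0 ∧ v ≠ 0 ∧ ¬ IsSquare (-2 * (x ^ 2 + v ^ 2 - 4)) := by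
  classical
  by_cases h : IsSquare (-2 : F)
  swap
  · exact ⟨2, 1, h2, one_ne_zero, by norm_num; exact h⟩
  obtain ⟨e, he⟩ := h
  have he0 : e ≠ 0 := by rintro rfl; exact h2 (by linear_combination -he)
  have h4' : (4 : F) ≠ 0 := by
    have := mul_ne_zero h2 h2
    norm_num at this ⊢
    exact this
  have h5 : Fintype.card F ≠ 5 := by
    intro h5
    have h6 := FiniteField.pow_card_sub_one_eq_one e he0
    have h7 := FiniteField.cast_card_eq_zero F
    rw [h5] at h6 h7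
    norm_num at h6 h7
    exact h2 (by linear_combination h7 - h6 - (e * e - 2) * he)
  obtain ⟨k, hk⟩ := IsCyclic.exists_ofOrder_eq_natCard (α := Fˣ)
  have hk4 : (k : F) ^ 4 ≠ 1 := by
    intro h
    have h6 := Nat.le_of_dvd (by norm_num) (orderOf_dvd_of_pow_eq_one (x := k) (n := 4)
      (Units.ext (by simpa using h)))
    rw [hk, Nat.card_eq_fintype_card, Fintype.card_units] at h6
    obtain ⟨j, hj⟩ := odd_card_of_two_ne_zero h2
    omega
  have hk1 : 1 - (k : F) ^ 2 ≠ 0 := fun h => hk4 (by linear_combination -(1 + (k : F) ^ 2) * h)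
  have hk2 : 1 + (k : F) ^ 2 ≠ 0 := fun h => hk4 (by linear_combination ((k : F) ^ 2 - 1) * h)
  have hsq : ∀ {d c : F}, c ≠ 0 → ¬ IsSquare d → ¬ IsSquare (d * c ^ 2) := by
    rintro d c hc hd ⟨r, hr⟩
    exact hd ⟨r / c, by field_simp; linear_combination hr⟩
  obtain ⟨d, hd, hd4⟩ : ∃ d : F, ¬ IsSquare d ∧ d + 4 ≠ 0 := by
    obtain ⟨d, hd⟩ := FiniteField.exists_nonsquare (F := F)
      (ringChar_ne_two_of_odd (odd_card_of_two_ne_zero h2))
    by_cases h : d + 4 = 0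
    · exact ⟨_, hsq k.ne_zero hd, fun h' => mul_ne_zero h4' hk1
        (by linear_combination h' - (k : F) ^ 2 * h)⟩
    · exact ⟨d, hd, h⟩
  suffices ∃ x v : F, x ≠ 0 ∧ v ≠ 0 ∧ x ^ 2 + v ^ 2 = d + 4 by
    obtain ⟨x, v, hx, hv, h⟩ := this
    refine ⟨x, v, hx, hv, ?_⟩
    rw [h, he, show e * e * (d + 4 - 4) = d * e ^ 2 by ring]
    exact hsq he0 hd
  have key : ∀ a : F, a ^ 2 = d + 4 → ∃ x v : F, x ≠ 0 ∧ v ≠ 0 ∧ x ^ 2 + v ^ 2 = d + 4 := by
    intro a ha
    have ha0 : a ≠ 0 := by rintro rfl; exact hd4 (by linear_combination -ha)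
    refine ⟨a * (1 - k ^ 2) / (1 + k ^ 2), 2 * a * k / (1 + k ^ 2),
      div_ne_zero (mul_ne_zero ha0 hk1) hk2,
      div_ne_zero (mul_ne_zero (mul_ne_zero h2 ha0) k.ne_zero) hk2, ?_⟩
    rw [← ha]
    field_simp
    ring
  obtain ⟨a, b, hab⟩ := exists_norm_eq (F := F) (t := 0) (d := 1) (by simpa using h4') (d + 4)
  by_cases ha : a = 0
  · exact key b (by rw [ha] at hab; linear_combination hab)
  by_cases hb : b = 0
  · exact key a (by rw [hb] at hab; linear_combination hab)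
  exact ⟨a, b, ha, hb, by linear_combination hab⟩

theorem bwwNe_psl2 [Fintype F] (h4 : 4 ≤ Fintype.card F) : BwwNe (PSL2 F) := by
  classical
  by_cases h2 : (2 : F) = 0
  · obtain ⟨a, ha⟩ := exists_not_mem_of_card_lt (S := ({0, 1} : Finset F))
      (Finset.card_le_two.trans_lt (by omega))
    obtain ⟨c, hc⟩ := exists_not_mem_of_card_lt (S := ({0, a + a⁻¹} : Finset F))
      (Finset.card_le_two.trans_lt (by omega))
    simp only [Finset.mem_insert, Finset.mem_singleton, not_or] at ha hc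
    have hsq : ∀ x : F, x ^ 2 ≠ 0 → x ≠ 0 := fun x hx e => hx (by rw [e]; ring)
    have hR : (a + a⁻¹ - c) ^ 2 ≠ 0 := pow_ne_zero 2 (sub_ne_zero.2 (Ne.symm hc.2))
    refine bwwNe_psl2_of_exists (s := (slLin F).mk1 !![a, 0; c, a⁻¹] (by simp [ha.1])) ?_ ?_
      (R := (a + a⁻¹ - c) ^ 2) ?_ hR fun z hz => ?_
    · rw [Lin2.ρ_mk1]
      intro h
      have h' : a + a⁻¹ = 0 := h
      have h3 : (a - 1) ^ 2 = 0 := by
        linear_combination a * h' - mul_inv_cancel₀ ha.1 - a * h2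
      exact ha.2 (sub_eq_zero.1 (pow_eq_zero_iff two_ne_zero |>.1 h3))
    · simpa [Lin2.ρ_mk1] using hc.1
    · simp only [Lin2.ρ_mk1, of_apply, cons_val', cons_val_zero, cons_val_one, cons_val_fin_one]
      linear_combination ((a + a⁻¹) * c - 2) * h2
    · rw [h2, zero_add]
      exact mul_ne_zero hR (pow_ne_zero 2 hz)
  · obtain ⟨x, v, hx, hv, h⟩ := exists_good_pair h2 h4
    have h4' : (4 : F) ≠ 0 := by
      have := mul_ne_zero h2 h2
      norm_num at this ⊢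
      exact this
    obtain ⟨m, n, hmn⟩ := exists_norm_eq (F := F) (t := 0) (d := 1) (by simpa using h4')
      (x ^ 2 + v ^ 2 - 4)
    refine bwwNe_psl2_of_exists (s := (slLin F).mk1
      !![(x + m) / 2, (n + v) / 2; (n - v) / 2, (x - m) / 2] (by
        rw [det_fin_two_of]; field_simp; linear_combination -hmn)) ?_ ?_
      (R := x ^ 2 + v ^ 2 - 4) ?_ (fun e => h (by rw [e]; simp)) fun z hz e => h
        ⟨(x ^ 2 + v ^ 2 - 4) * z, by linear_combination -(x ^ 2 + v ^ 2 - 4) * e⟩ <;>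
      simp only [Lin2.ρ_mk1, of_apply, cons_val', cons_val_zero, cons_val_one, cons_val_fin_one]
    · rwa [show (x + m) / 2 + (x - m) / 2 = x by field_simp; ring]
    · rwa [show (n + v) / 2 - (n - v) / 2 = v by field_simp; ring]
    · field_simp
      ring

end PSL2

theorem bwwNe_of_conj {x y c : G} (hx : x ≠ 1) (hc : c * y = y * c)
    (h : bwwStep y x = c * x * c⁻¹) : BwwNe G := by
  refine ⟨x, y, fun n => ?_⟩
  obtain ⟨k, hk, e⟩ := bww_mem_of_invariant (x := x) (y := y)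
    (V := fun s => ∃ k : G, k * y * k⁻¹ = y ∧ s = k * x * k⁻¹) ⟨1, by simp, by simp⟩ (by
      rintro _ ⟨k, hk, rfl⟩
      refine ⟨k * c, by rw [mul_inv_rev, mul_assoc k, hc, ← mul_assoc, ← mul_assoc,
        mul_inv_cancel_right, hk], ?_⟩
      have := map_bwwStep (MulAut.conj k).toMonoidHom y x
      simp only [MulEquiv.coe_toMonoidHom, MulAut.conj_apply, hk, h] at this
      rw [← this]
      group) n
  rw [e, Ne, conj_eq_one_iff]
  exact hx

theorem bwwNe_SL33 : BwwNe SL33 := by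
  let x : SL33 := ⟨!![0, 0, 1; 0, 2, 0; 1, 0, 0], by rw [Matrix.det_fin_three]; decide⟩
  let y : SL33 := ⟨!![0, 0, 1; 0, 1, 1; 2, 1, 2], by rw [Matrix.det_fin_three]; decide⟩
  let w : SL33 := ⟨!![2, 0, 0; 1, 1, 0; 2, 1, 2], by rw [Matrix.det_fin_three]; decide⟩
  let c : SL33 := ⟨!![0, 1, 1; 2, 2, 2; 2, 2, 0], by rw [Matrix.det_fin_three]; decide⟩
  let v : SL33 := ⟨!![0, 0, 2; 0, 2, 1; 2, 2, 2], by rw [Matrix.det_fin_three]; decide⟩
  have h1 : x * y = y * w := Subtype.ext (by decide)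
  have h2 : x * x = 1 := Subtype.ext (by decide)
  have h3 : w * w = 1 := Subtype.ext (by decide)
  have h4 : w * x = v := Subtype.ext (by decide)
  have h5 : v * v * c = c * x := Subtype.ext (by decide)
  refine bwwNe_of_conj (x := x) (y := y) (c := c) (fun h => absurd (congrArg Subtype.val h)
    (by decide)) (Subtype.ext (by decide)) ?_
  rw [bwwStep, mul_assoc y⁻¹, h1, inv_mul_cancel_left, inv_inv, inv_eq_of_mul_eq_one_right h2,
    inv_eq_of_mul_eq_one_right h3, mul_assoc (w * x), h4, ← h5, mul_inv_cancel_right]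

theorem bwwNe_of_not_isSolvable [Agent.Gate.MinSimple.{u}] {G : Type u} [Group G] [Finite G]
    (hG : ¬ Group.IsSolvable G) : BwwNe G := by
  obtain ⟨H, N, _, -, -, hS⟩ := exists_minimalSimple_section hG
  refine BwwNe.of_injective H.subtype H.subtype_injective
    (BwwNe.of_surjective _ (QuotientGroup.mk'_surjective N) ?_)
  rcases minimalSimple_cases hS with ⟨F, _, _, h4, ⟨e⟩⟩ | ⟨⟨e⟩⟩ | ⟨F, _, _, τ, ⟨M⟩⟩
  · exact (bwwNe_psl2 h4).of_injective e.symm.toMonoidHom e.symm.injective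
  · exact bwwNe_SL33.of_injective e.symm.toMonoidHom e.symm.injective
  · exact bwwNe_sz M

end Cfsg.Lib.Ngrp
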