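import Cfsg.Agent.Ngrp.PrimeTriple
import Cfsg.Agent.Known.PSL2Klein
import Cfsg.Agent.Char.Elementary
import Cfsg.Agent.Solv.Conj
import Cfsg.Agent.Gold.PiHom

/-!
Non-nilpotent subgroups of order prime to a given prime `p > 3` in the minimal simple groups.
-/

set_option autoImplicit false

namespace Cfsg.Lib.Ngrp

open Subgroup Cfsg.Lib.Solv

universe u

variable {G : Type*} [Group G]

/-- A non-nilpotent subgroup of order prime to `p`. -/
def NonNil (G : Type*) [Group G] (p : ℕ) : Prop :=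
  ∃ K : Subgroup G, (Nat.card K).Coprime p ∧ ¬ Group.IsNilpotent K

theorem NonNil.of_equiv {G' : Type*} [Group G'] (e : G' ≃* G) {p : ℕ} (h : NonNil G' p) :
    NonNil G p := by
  obtain ⟨K, h1, h2⟩ := h
  have e' := K.equivMapOfInjective e.toMonoidHom e.injective
  exact ⟨K.map e.toMonoidHom, by rwa [← Nat.card_congr e'.toEquiv],
    fun _ => h2 (Group.nilpotent_of_mulEquiv e'.symm)⟩

theorem nonNil_of_act {p m n : ℕ} {Q : Subgroup G} {x y : G} (hQ : (Nat.card Q).Coprime p)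
    (hx : (orderOf x).Coprime p) (hxQ : x ∈ normalizer (Q : Set G)) (hy : y ∈ Q)
    (hmn : m.Coprime n) (hxm : x ^ m = 1) (hyn : y ^ n = 1) (h : ¬ Commute x y) : NonNil G p := by
  refine ⟨Q ⊔ zpowers x, Nat.Coprime.coprime_dvd_left
    (card_sup_dvd_of_le_normalizer (zpowers_le.2 hxQ)) (Nat.Coprime.mul_left hQ ?_), fun hn => h ?_⟩
  · rwa [Nat.card_zpowers]
  · have := Char.Brauer.commute_of_pow_eq_one_of_isNilpotent (G := ↥(Q ⊔ zpowers x)) hmn
      (x := ⟨x, mem_sup_right (mem_zpowers x)⟩) (y := ⟨y, mem_sup_left hy⟩) (Subtype.ext hxm)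
      (Subtype.ext hyn)
    exact congrArg Subtype.val this

theorem nonNil_of_inv {p r : ℕ} (hp : p.Prime) (hp2 : p ≠ 2) (hr : r.Prime) (hr2 : r ≠ 2)
    (hrp : r ≠ p) {x t : G} (hx : orderOf x = r) (ht : t * t = 1) (h : t * x * t⁻¹ = x⁻¹) :
    NonNil G p := by
  have ht2 : t ^ 2 = 1 := by rwa [sq]
  refine nonNil_of_act (Q := zpowers x) (x := t) (y := x) (m := 2) (n := r) ?_ ?_ ?_
    (mem_zpowers x) ((Nat.coprime_primes Nat.prime_two hr).2 hr2.symm) ht2
    (hx ▸ pow_orderOf_eq_one x) fun hc => hr2 ?_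
  · rw [Nat.card_zpowers, hx]
    exact (Nat.coprime_primes hr hp).2 hrp
  · exact Nat.Coprime.coprime_dvd_left (orderOf_dvd_of_pow_eq_one ht2)
      ((Nat.coprime_primes Nat.prime_two hp).2 hp2.symm)
  · refine mem_normalizer_iff_map_conj_eq.2 ?_
    rw [MonoidHom.map_zpowers]
    change zpowers (t * x * t⁻¹) = _
    rw [h, zpowers_inv]
  · rw [hc.eq, mul_inv_cancel_right] at h
    have h2 : x ^ 2 = 1 := by rw [sq]; nth_rewrite 2 [h]; exact mul_inv_cancel x
    exact (Nat.prime_dvd_prime_iff_eq hr Nat.prime_two).1 (hx ▸ orderOf_dvd_of_pow_eq_one h2)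

section PSL2

open Cfsg.Lib.Known Cfsg.Lib.Known.GL2 Matrix

theorem nonNil_psl2 {F : Type*} [Field F] [Finite F] {p : ℕ} (hp : p.Prime) (hp3 : 3 < p) :
    NonNil (PSL2 F) p := by
  have h3 : Fact (Nat.Prime 3) := ⟨Nat.prime_three⟩
  by_cases h2 : (2 : F) = 0
  · refine NonNil.of_equiv (equivPSL h2) ?_
    have hn : (-1 : F) = 1 := by linear_combination -h2
    have h11 : (1 + 1 : F) = 0 := by linear_combination h2
    let x : SL2 F := ⟨!![0, 1; 1, 1], by simp [det_fin_two, hn]⟩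
    let t : SL2 F := ⟨!![0, 1; 1, 0], by simp [det_fin_two, hn]⟩
    have ht : t * t = 1 := by
      apply Subtype.ext
      change (!![0, 1; 1, 0] * !![0, 1; 1, 0] : Matrix (Fin 2) (Fin 2) F) = 1
      ext i j
      fin_cases i <;> fin_cases j <;> simp
    refine nonNil_of_inv hp (by omega) Nat.prime_three (by norm_num) (by omega) (x := x) (t := t)
      (orderOf_eq_prime ?_ fun h => ?_) ht ?_
    · rw [pow_succ, sq]
      apply Subtype.ext
      change (!![0, 1; 1, 1] * !![0, 1; 1, 1] * !![0, 1; 1, 1] : Matrix (Fin 2) (Fin 2) F) = 1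
      ext i j
      fin_cases i <;> fin_cases j <;> simp [h11]
    · have := congrArg (fun g : SL2 F => g 0 0) h
      simp [x] at this
    · rw [inv_eq_of_mul_eq_one_right ht, eq_inv_iff_mul_eq_one]
      apply Subtype.ext
      change (!![0, 1; 1, 0] * !![0, 1; 1, 1] * !![0, 1; 1, 0] * !![0, 1; 1, 1] :
        Matrix (Fin 2) (Fin 2) F) = 1
      ext i j
      fin_cases i <;> fin_cases j <;> simp [h11]
  · have := finite_PSL2 (F := F)
    let i : SL2 F := ⟨!![0, 1; -1, 0], by simp [det_fin_two]⟩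
    have hi : ((slLin F).ρ i).trace = 0 := by
      change Matrix.trace (!![0, 1; -1, 0] : Matrix (Fin 2) (Fin 2) F) = 0
      simp [trace_fin_two]
    have ha : orderOf (piSL F i) = 2 :=
      orderOf_piSL_eq_two_iff.2 ⟨not_mem_Z_of_trace_SL h2 hi, hi⟩
    have h1 := two_mul_card_isFourPair h2 ha
    have h4 : Nat.card {b : PSL2 F // IsFourPair (piSL F i) b} ≠ 0 := fun e => by
      rw [e] at h1
      exact Nat.card_pos.ne h1
    obtain ⟨⟨b, hb⟩⟩ := (Nat.card_ne_zero.1 h4).1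
    obtain ⟨ω, hω, e1, e2, -⟩ := exists_conj_fix h2 hb
    refine nonNil_of_act (Q := four (piSL F i) b) (x := ω) (y := piSL F i) (m := 3) (n := 2) ?_ ?_
      ?_ (left_mem_four _ _) (by norm_num) (hω ▸ pow_orderOf_eq_one ω) (by rw [sq, hb.sq_a])
      fun hc => hb.ne ?_
    · rw [hb.card_four]
      exact Nat.Coprime.pow_left 2 ((Nat.coprime_primes Nat.prime_two hp).2 (by omega))
    · rw [hω]
      exact (Nat.coprime_primes Nat.prime_three hp).2 (by omega)
    · refine mem_normalizer_iff_map_conj_eq.2 ?_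
      rw [map_four]
      change four (ω * piSL F i * ω⁻¹) (ω * b * ω⁻¹) = _
      rw [e1, e2, ← hb.comm, four_mul, four_comm]
    · rw [← e1, hc.eq, mul_inv_cancel_right]

end PSL2

/-- A cyclic permutation matrix. -/
def c33 : SL33 := ⟨!![0, 0, 1; 1, 0, 0; 0, 1, 0], by rw [Matrix.det_fin_three]; decide⟩

/-- The negative of a transposition matrix. -/
def t33 : SL33 := ⟨!![0, 2, 0; 2, 0, 0; 0, 0, 2], by rw [Matrix.det_fin_three]; decide⟩

theorem nonNil_SL33 {p : ℕ} (hp : p.Prime) (hp3 : 3 < p) : NonNil SL33 p := by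
  have h3 : Fact (Nat.Prime 3) := ⟨Nat.prime_three⟩
  have ht : t33 * t33 = 1 := Subtype.ext (by decide)
  refine nonNil_of_inv hp (by omega) Nat.prime_three (by norm_num) (by omega) (x := c33) (t := t33)
    (orderOf_eq_prime (Subtype.ext (by decide)) fun h => absurd (congrArg Subtype.val h) (by decide))
    ht ?_
  rw [inv_eq_of_mul_eq_one_right ht, eq_inv_iff_mul_eq_one]
  exact Subtype.ext (by decide)

open Cfsg.Lib.Chev in
theorem nonNil_sz {F : Type*} [Field F] [Fintype F] {τ : Tw F} (M : SzModel τ G) {p : ℕ}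
    (hp : p.Prime) (hp2 : p ≠ 2) : NonNil G p := by
  have h5 : Fact (Nat.Prime 5) := ⟨by norm_num⟩
  by_cases hp5 : p = 5
  · have h8 := M.eight_le_card
    obtain ⟨r, hr, hrd⟩ := Nat.exists_prime_and_dvd (n := Fintype.card F - 1) (by omega)
    obtain ⟨l, hl⟩ := @exists_prime_orderOf_dvd_card' Fˣ _ _ r ⟨hr⟩
      (by classical rwa [Nat.card_eq_fintype_card, Fintype.card_units])
    obtain ⟨m, -, hm⟩ := M.exists_card
    refine nonNil_of_inv hp hp2 hr ?_ ?_ (x := M.D l) (t := M.w)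
      (by rw [orderOf_injective _ M.D_inj, hl]) M.w_mul_w (by rw [M.w_inv, M.w_D_w, map_inv])
    · rintro rfl
      exact (Nat.not_even_iff_odd.2 (SzModel.odd_sub_one (τ := τ))) (even_iff_two_dvd.2 hrd)
    · intro e
      rw [e, hp5] at hrd
      have h1 : 2 ^ (2 * m + 1) % 5 = 2 ∨ 2 ^ (2 * m + 1) % 5 = 3 := by
        clear hm
        induction m with
        | zero => simp
        | succ m ih =>
          rw [show 2 * (m + 1) + 1 = 2 * m + 1 + 2 by ring, pow_add]
          omega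
      omega
  · have h1 := sz_w_mul_pow_five M 1 (b := 1) (by simp)
    rw [map_one, mul_one] at h1
    have hT : M.T 0 1 * M.T 0 1 = 1 := by rw [← sq, M.T_zero_sq]
    refine nonNil_of_inv hp hp2 h5.out (by norm_num) (Ne.symm hp5) (x := M.w * M.T 0 1) (t := M.w)
      (orderOf_eq_prime h1 fun h => ?_) M.w_mul_w ?_
    · have h2 : M.w ∈ M.B := by
        rw [eq_inv_of_mul_eq_one_left h]
        exact inv_mem (M.P_le_B (M.T_mem_P 0 1))
      exact M.pt_ne_inf 0 0 (M.w_smul_inf.symm.trans (M.mem_B.1 h2))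
    · rw [← mul_assoc, M.w_mul_w, one_mul, mul_inv_rev, inv_eq_of_mul_eq_one_right hT]

theorem nonNil_of_isMinimalSimple {G : Type u} [Group G] [Finite G] [Agent.Gate.MinSimple.{u}]
    (h : IsMinimalSimple G) {p : ℕ} (hp : p.Prime) (hp3 : 3 < p) : NonNil G p := by
  rcases minimalSimple_cases h with ⟨F, _, _, -, ⟨e⟩⟩ | ⟨⟨e⟩⟩ | ⟨F, _, _, τ, ⟨M⟩⟩
  · exact (nonNil_psl2 hp hp3).of_equiv e.symm
  · exact (nonNil_SL33 hp hp3).of_equiv e.symm
  · exact nonNil_sz M hp (by omega)

theorem nonNil_of_not_isSolvable {G : Type u} [Group G] [Finite G] [Agent.Gate.MinSimple.{u}]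
    (h : ¬ Group.IsSolvable G) {p : ℕ} (hp : p.Prime) (hp3 : 3 < p) : NonNil G p := by
  obtain ⟨H, N, _, -, -, hS⟩ := exists_minimalSimple_section h
  obtain ⟨K, h1, h2⟩ := nonNil_of_isMinimalSimple hS hp hp3
  obtain ⟨L, rfl, hL⟩ := Gold.exists_lift_isPiNum _ (QuotientGroup.mk'_surjective N)
    ((isPiNum_compl_singleton_iff hp).2 h1)
  have e := L.equivMapOfInjective H.subtype H.subtype_injective
  refine ⟨L.map H.subtype, ?_, fun _ => h2 ?_⟩
  · rw [← Nat.card_congr e.toEquiv]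
    exact (isPiNum_compl_singleton_iff hp).1 hL
  · have := Group.nilpotent_of_mulEquiv e.symm
    exact Group.nilpotent_of_surjective _ ((QuotientGroup.mk' N).subgroupMap_surjective L)

end Cfsg.Lib.Ngrp
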