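import Cfsg.Agent.Ngrp.ZNTri
import Cfsg.Agent.Ngrp.Dichotomy
import Cfsg.Agent.Rank2.Sylow

/-!
# Reduction to characteristic two when `C(Ω₁ Z(S)) ≤ N(S)`
-/

set_option autoImplicit false

namespace Cfsg.Lib.Ngrp
open Subgroup Cfsg.Lib.Trans Cfsg.Lib.Local Cfsg.Lib.Local.JC Cfsg.Agent

universe u
variable {G : Type u} [Group G] [Finite G] {K : Subgroup G}

omit [Finite G] in
theorem sq_of_two {x : G} (h : orderOf x = 2) : x * x = 1 := by rw [← sq, ← h, pow_orderOf_eq_one]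

omit [Finite G] in
theorem ne_one_of_two {x : G} (h : orderOf x = 2) : x ≠ 1 := by rintro rfl; simp at h

theorem cases_of_rank (hr : PRankLE 2 2 G) {z u t : G} (hz : orderOf z = 2) (hu : orderOf u = 2)
    (hne : u ≠ z) (h : z * u = u * z) (ht : orderOf t = 2) (h1 : z * t = t * z)
    (h2 : u * t = t * u) : t = z ∨ t = u ∨ t = z * u := by
  by_contra hc
  push Not at hc
  obtain ⟨E, h3, h4, h5⟩ := exists_elementary_eight z u t (sq_of_two hz) (sq_of_two hu)
    (sq_of_two ht) h h1 h2 (ne_one_of_two hz) (ne_one_of_two hu) hne (ne_one_of_two ht) hc.1 hc.2.1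
    hc.2.2
  have := hr E (ea_of_sq fun a ha => sq a ▸ h4 a ha).1 h4
  omega

/-- Fusion of involutions in rank two. -/
theorem fusion_rank_two (hG : ∀ H : Subgroup G, H.index ≠ 2) (hr : PRankLE 2 2 G) (R : Sylow 2 G)
    {z u : G} (hz : orderOf z = 2) (zR : z ∈ (R : Subgroup G))
    (zc : ∀ s ∈ (R : Subgroup G), s * z = z * s) (uR : u ∈ (R : Subgroup G)) (hne : u ≠ z)
    (hzu : IsConj u z) (hn : ¬ ∀ s ∈ (R : Subgroup G), s * u = u * s) {y : G} (hy : orderOf y = 2) :
    IsConj y z := by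
  have hu : orderOf u = 2 := by
    obtain ⟨c, rfl⟩ := isConj_iff.1 hzu
    rwa [orderOf_conj] at hz
  have zz := sq_of_two hz
  have uu := sq_of_two hu
  have hc : ∀ t ∈ (R : Subgroup G), orderOf t = 2 → (∀ s ∈ (R : Subgroup G), s * t = t * s) →
      t = z := fun t ht t2 h => by
    rcases cases_of_rank hr hz hu hne (zc u uR).symm t2 (h z zR) (h u uR) with e | rfl | rfl
    · exact e
    · exact absurd h hn
    · refine absurd (fun s hs => mul_left_cancel (a := z) ?_) hn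
      rw [← mul_assoc, ← zc s hs, mul_assoc, h s hs, mul_assoc]
  rcases two_subgroup_dichotomy R.isPGroup' with ⟨a, h1, h2⟩ | ⟨z', h1, e, eR, h2, e2, ez, h3, he⟩
  · obtain ⟨w, -, -, -, h⟩ := one_class_of_cyclic_idx hG R h1 h2 hz
    exact (h y hy).trans (h z hz).symm
  obtain rfl := hc z' h1 h2 h3
  have ee := sq_of_two e2
  have hI := idxLeTwo_centralizer zz zc he
  have hU : ∀ t ∈ (R : Subgroup G), orderOf t = 2 → t ∈ C1 e → t = z' ∨ t = e ∨ t = z' * e :=
    fun t ht t2 h => cases_of_rank hr hz e2 ez (zc e eR).symm t2 (zc t ht).symm (mem_C1.1 h).symm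
  have hee : IsConj e (z' * e) := by
    by_contra h
    exact ez (hc e eR e2 fun s hs => mul_inv_eq_iff_eq_mul.1
      ((he s hs).resolve_right fun e' => h (isConj_iff.2 ⟨s, e'⟩)))
  suffices h : IsConj e z' by
    obtain ⟨w, h4, h5, h6⟩ := thompson_idx' hG R hI hy
    obtain ⟨c, rfl⟩ := isConj_iff.1 h4
    rcases hU _ h5 (by rw [orderOf_conj, hy]) h6 with e' | e' | e' <;> rw [e'] at h4
    exacts [h4, h4.trans h, h4.trans (hee.symm.trans h)]
  have key : ∀ t ∈ (R : Subgroup G), t ≠ z' → IsConj t z' → t ∈ C1 e → IsConj e z' :=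
    fun t ht tz h h' => by
      obtain ⟨c, hc⟩ := isConj_iff.1 h
      rcases hU t ht (by rw [← orderOf_conj c, hc, hz]) h' with e' | rfl | rfl
      exacts [absurd e' tz, h, hee.trans h]
  by_contra hez
  have ue : u ∉ C1 e := fun h => hez (key u uR hne hzu h)
  have ueu : u * e * u⁻¹ = z' * e :=
    (he u uR).resolve_left fun h => ue (mem_C1.2 (mul_inv_eq_iff_eq_mul.1 h))
  have eu : e ∉ C1 u := fun h => ue (mem_C1.2 (mem_C1.1 h).symm)
  have zu : z' ∈ C1 u := mem_C1.2 (zc u uR).symm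
  have hC : ∀ x ∈ (R : Subgroup G), x ∈ C1 e → x ∈ C1 u → x = 1 ∨ x = z' := by
    obtain ⟨g, h4, h5⟩ := exists_extremal_conj (isSylowIn_of_le R fun s hs => mem_C1.2 (zc s hs)) hzu
      (R.isPGroup'.to_le (inf_le_left : (R : Subgroup G) ⊓ C1 u ≤ _)) fun r hr => mem_C1.1 hr.2
    by_contra hx
    push Not at hx
    obtain ⟨x, xR, xe, xu, x1, xz⟩ := hx
    obtain ⟨⟨c, cR⟩, hc1, hc2⟩ := Rank2.exists_mul_self_eq R.isPGroup' (z := ⟨z', zR⟩)
      (C := (C1 e ⊓ C1 u).subgroupOf R) (by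
        refine lt_of_le_of_lt (card_zpowers_two (s := (⟨z', zR⟩ : R)) (Subtype.ext zz)
          fun h => ne_one_of_two hz (congrArg Subtype.val h)).ge (card_lt_of_lt (lt_of_le_of_ne
            (zpowers_le.2 ⟨mem_C1.2 (zc e eR).symm, zu⟩) fun h => ?_))
        have : (⟨x, xR⟩ : R) ∈ zpowers (⟨z', zR⟩ : R) := h ▸ ⟨xe, xu⟩
        simpa [Subtype.ext_iff, x1, xz] using (mem_zpowers_two (Subtype.ext zz)).1 this)
      fun ⟨t, tR⟩ ht tt => by
        by_cases t1 : t = 1
        · exact Or.inl (Subtype.ext t1)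
        rcases hU t tR (orderOf_eq_prime (sq t ▸ congrArg Subtype.val tt) t1) ht.1 with h | h | h
        · exact Or.inr (Subtype.ext h)
        · exact absurd (h ▸ ht.2) eu
        · exact absurd (((C1 u).mul_mem_cancel_left zu).1 (h ▸ ht.2)) eu
    refine hez (key _ (h5 z' ⟨zR, zu⟩) (fun h => hne (Geo.conj_inj (h4.trans h.symm)))
      (isConj_iff.2 ⟨g, rfl⟩).symm ?_)
    have h6 := hI.mul_self_mem (h5 c ⟨cR, hc1.2⟩)
    rwa [show g * c * g⁻¹ * (g * c * g⁻¹) = g * (c * c) * g⁻¹ by group,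
      show c * c = z' from congrArg Subtype.val hc2] at h6
  have hR0 : (R : Subgroup G) ⊓ C1 e ≤ four z' e := by
    by_contra hc
    have := R.isPGroup'.isNilpotent
    have : ((C1 e).subgroupOf R).Normal := ⟨fun n hn g => hI.conj_mem g.2 n.2 hn⟩
    obtain ⟨⟨x, xR⟩, xe, x4, hx⟩ := exists_mem_not_mem_conj_mul_inv_mem
      ((four z' e).subgroupOf R) ((C1 e).subgroupOf R) fun h => hc fun x hx => h (x := ⟨x, hx.1⟩) hx.2
    have h4 : u * x * u⁻¹ * x⁻¹ ∈ four z' e := hx ⟨u, uR⟩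
    have h5 : u * x * u⁻¹ * x⁻¹ ∈ C1 u := by
      have h6 := ea_sq (ea_four zz ee (zc e eR).symm) h4
      refine mem_C1.2 ?_
      calc _ = (u * x * u⁻¹ * x⁻¹)⁻¹ * u := by rw [inv_eq_of_sq h6]
        _ = x * u * x⁻¹ := by group
        _ = u * u * x * u⁻¹ * x⁻¹ := by rw [uu, inv_eq_of_sq uu, one_mul]
        _ = _ := by group
    have h7 : ∀ w ∈ zpowers z', w ∈ four z' e := fun w hw => mem_sup_left hw
    rcases (mem_four zz ee (zc e eR).symm).1 h4 with h | h | h | h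
    · refine x4 (h7 x ((mem_zpowers_two zz).2 (hC x xR xe (mem_C1.2 ?_))))
      rw [mul_inv_eq_one, mul_inv_eq_iff_eq_mul] at h
      exact h.symm
    · refine x4 (((four z' e).mul_mem_cancel_right (right_mem_four _ _)).1 (h7 _
        ((mem_zpowers_two zz).2 (hC (x * e) (mul_mem xR eR) (mul_mem xe (mem_C1.2 rfl))
          (mem_C1.2 (mul_inv_eq_iff_eq_mul.1 ?_).symm)))))
      rw [show u * (x * e) * u⁻¹ = u * x * u⁻¹ * x⁻¹ * x * (u * e * u⁻¹) by group, h, ueu,
        ← zc x xR, mul_assoc, ← mul_assoc z', zz, one_mul]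
    · exact eu (h ▸ h5)
    · exact eu (((C1 u).mul_mem_cancel_left zu).1 (h ▸ h5))
  have h8 := card_le_two_mul_of_half (inf_le_left : (R : Subgroup G) ⊓ C1 e ≤ _)
    fun x hx y hy h h' => ⟨mul_mem hx hy, hI x hx y hy (fun e => h ⟨hx, e⟩) fun e => h' ⟨hy, e⟩⟩
  have h9 := Subgroup.card_le_of_le hR0
  rw [card_four zz ee (zc e eR).symm (ne_one_of_two hz) (ne_one_of_two e2) ez.symm] at h9
  obtain ⟨w, h4, -, h6⟩ := thompson_idx' hG R (M := four z' u) (half_of_card_le (four_le zR uR) (by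
    rw [card_four zz uu (zc u uR).symm (ne_one_of_two hz) (ne_one_of_two hu) hne.symm]; omega)) e2
  rcases (mem_four zz uu (zc u uR).symm).1 h6 with rfl | rfl | rfl | rfl
  · exact ne_one_of_two e2 (isConj_one_left.1 h4)
  · exact hez h4
  · exact hez (h4.trans hzu)
  · refine hez (h4.trans ((isConj_iff.2 ⟨e, ?_⟩ : IsConj u _).symm.trans hzu))
    rw [inv_eq_of_sq ee, show e * u * e = u⁻¹ * (u * e * u) * e by group,
      show u * e * u = z' * e by rw [← ueu, inv_eq_of_sq uu], inv_eq_of_sq uu, ← mul_assoc,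
      mul_assoc, ee, mul_one, zc u uR]

theorem th_le_res (t : G) : th t ≤ pResidual 2 G := fun _ hx =>
  subset_closure ((coprime_th t).coprime_dvd_left (orderOf_dvd_natCard _ hx))

theorem map_th [K.Normal] (h : pResidual 2 G ≤ K) (t : K) : (th t).map K.subtype = th (t : G) := by
  rw [map_ppCoreOf_of_injective _ K.subtype_injective, map_C1_subtype]
  refine le_antisymm (le_ppCoreOf ((map_subtype_le _).trans inf_le_right) ((Solv.le_normalizer_inf
    (by rw [normalizer_eq_top K]; exact le_top) le_normalizer).trans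
      (normalizer_le_normalizer_ppCoreOf _ _)) (coprime_ppCoreOf _ _))
    (le_ppCoreOf (le_inf ((th_le_res _).trans h) (th_le _))
      (inf_le_right.trans (C1_le_normalizer_th _)) (coprime_th _))

omit [Finite G] in
theorem SolvC.sub (h : SolvC G) (K : Subgroup G) : SolvC K := fun t ht => by
  have := h t (by rw [orderOf_coe, ht])
  have h3 := (map_C1_subtype t).le.trans inf_le_right
  exact Group.isSolvable_of_isSolvable_injective (f := (inclusion h3).comp
    ((C1 t).equivMapOfInjective _ K.subtype_injective).toMonoidHom)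
    ((inclusion_injective h3).comp (MulEquiv.injective _))

theorem SolvC.type_of_th [K.Normal] (hC : SolvC G) (h : pResidual 2 G ≤ K) (he : 2 ∣ Nat.card K)
    (h0 : ∀ t ∈ K, orderOf t = 2 → th t = ⊥) : IsCharacteristicTwoType K :=
  (hC.sub K).charTwoType (even_iff_two_dvd.2 he) fun t ht =>
    (map_eq_bot_iff_of_injective _ K.subtype_injective).1
      ((map_th h t).trans (h0 t t.2 (by rw [orderOf_coe, ht])))

omit [Finite G] in
theorem eq_bot_of_odd (hO : pPrimeCore 2 G = ⊥) {X : Subgroup G} (hn : normalizer (X : Set G) = ⊤)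
    (hX : (Nat.card X).Coprime 2) : X = ⊥ :=
  eq_bot_iff.2 (hO ▸ le_sSup ⟨normalizer_eq_top_iff.1 hn, hX⟩)

theorem SolvC.se_of_four [Gate.S0217.{u}] (hC : SolvC G) (hO : pPrimeCore 2 G = ⊥)
    (hr : ¬ PRankLE 2 2 G) (S : Sylow 2 G) (h4 : 4 ≤ Nat.card (omegaCenterOf (S : Subgroup G))) :
    (∀ t : G, orderOf t = 2 → th t = ⊥) ∨ ∃ M : Subgroup G, SE 2 M := by
  have hW : (Nat.card (thV (omegaCenterOf (S : Subgroup G)))).Coprime 2 := by
    simp only [PRankLE, not_forall, not_le] at hr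
    obtain ⟨A, h1, h2, h3⟩ := hr
    have hA : IsElementaryAbelian 2 A := ⟨h1, h2⟩
    obtain ⟨g, -, hg⟩ := (isSylowIn_top S).exists_cj_le (ea_isPGroup hA) le_top
    have hB := ea_sup (ea_cj hA g) (ea_oc S) ((oc_le_centralizer _).trans (centralizer_le hg))
    rw [hC.thV_eq_of_le hB le_sup_right h4]
    refine (hC.complete hB ?_).1
    have h5 := Subgroup.card_le_of_le (le_sup_left : cj g A ≤ cj g A ⊔ omegaCenterOf S)
    obtain ⟨n, hn⟩ := (ea_isPGroup hA).exists_card_eq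
    rw [card_cj] at h5
    refine le_trans ?_ h5
    rw [hn] at h3 ⊢
    exact Nat.pow_le_pow_right two_pos ((Nat.pow_lt_pow_iff_right one_lt_two).1 h3)
  have hth : ∀ t ∈ (S : Subgroup G), orderOf t = 2 → th t ≤ thV (omegaCenterOf (S : Subgroup G)) :=
    fun t ht t2 => hC.th_le_thV_of_comm (ea_oc _) h4 t2 fun z hz =>
      mem_C1.2 (oc_le_centralizer _ hz t ht).symm
  by_cases h0 : thV (omegaCenterOf (S : Subgroup G)) = ⊥
  · refine Or.inl fun t t2 => ?_
    obtain ⟨u, h1, h2⟩ := exists_conj_mem_sylow_two S t2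
    obtain ⟨c, rfl⟩ := isConj_iff.1 h1
    exact cj_eq_bot.1 ((cj_th c t).trans
      (eq_bot_iff.2 (h0 ▸ hth _ h2 (by rw [orderOf_conj, t2]))))
  refine Or.inr ⟨_, SE.of_centralizer_normalizer (fun e => h0 (eq_bot_of_odd hO e hW)) S
    ((normalizer_le_normalizer_oc _).trans (normalizer_le_normalizer_thV _)) fun u hu u2 g hg => ?_⟩
  obtain ⟨T, hT, h1⟩ := exists_isSylowIn_ge (S.isPGroup'.to_le (oc_le _))
    (fun z hz => mem_C1.2 (oc_le_centralizer _ hz u hu).symm : _ ≤ C1 u)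
  obtain ⟨S', hS'⟩ := hT.exists_sylow_inf
  obtain ⟨Q, q1, -, q2, -, -, q3⟩ := exists_factor (hC u u2) hT
  obtain ⟨k, hk, n, -, hn, rfl⟩ := q3 g hg
  have hTS : T ≤ S' := hS' ▸ inf_le_left
  have huT : u ∈ T := hT.le_of_normal (isPGroup_zpowers_of_orderOf_eq u2)
    (zpowers_le.2 (mem_C1.2 rfl)) (centralizer_le_normalizer_zpowers u) (mem_zpowers u)
  have h5 : omegaCenterOf (S' : Subgroup G) ≤ omegaCenterOf Q := fun z hz => by
    have h6 := centralizer_le (q1.trans hTS) (oc_le_centralizer _ hz)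
    exact mem_oc.2 ⟨q2 ⟨hS' ▸ ⟨oc_le _ hz, mem_C1.2 (oc_le_centralizer _ hz u (hTS huT)).symm⟩, h6⟩,
      h6, oc_sq hz⟩
  have h4' : 4 ≤ Nat.card (omegaCenterOf (S' : Subgroup G)) := by
    obtain ⟨x, -, hx⟩ := (isSylowIn_top S').exists_cj_eq (isSylowIn_top S)
    rwa [← hx, ← cj_oc, card_cj]
  refine mul_mem (le_normalizer (hth u hu u2 hk)) ?_
  rw [hC.thV_eq_of_comm (ea_oc _) h4 (ea_oc _) h4' ((h1.trans hTS).trans (le_centralizer_oc _)),
    hC.thV_eq_of_le (ea_oc Q) h5 h4']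
  exact normalizer_le_normalizer_thV _ (normalizer_le_normalizer_oc Q hn)

theorem res_even (he : Even (Nat.card G)) (hO' : pPrimeCore 2 G = ⊥) (hO : pCore 2 G = ⊥) :
    2 ∣ Nat.card (pResidual 2 G) := by
  by_contra h
  have h1 := pCoreOf_eq_self (resOf_eq_bot_iff.1 (resOf_top.trans (eq_bot_of_odd hO'
    (normalizer_eq_top _) ((Nat.Prime.coprime_iff_not_dvd Nat.prime_two).2 h).symm)))
  rw [pCoreOf_top, hO] at h1
  rw [← card_top, ← h1, card_bot] at he
  simp at he

theorem zc_cases [Gate.S0217.{u}] (he : Even (Nat.card G)) (hC : SolvC G) (S : Sylow 2 G)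
    (hZ : centralizer (omegaCenterOf (S : Subgroup G) : Set G) ≤
      normalizer ((S : Subgroup G) : Set G)) (hO' : pPrimeCore 2 G = ⊥) (hO : pCore 2 G = ⊥) :
    (∃ M : Subgroup (pResidual 2 G), SE 2 M) ∨
    (Nat.card (omegaCenterOf (S : Subgroup G) ⊓ pResidual 2 G : Subgroup G) = 2 ∧
      ∀ h ∈ pResidual 2 G, ∀ z ∈ omegaCenterOf (S : Subgroup G) ⊓ pResidual 2 G,
        h * z * h⁻¹ ∈ (S : Subgroup G) → h * z * h⁻¹ ∈ omegaCenterOf (S : Subgroup G)) ∨
    (Nat.card (omegaCenterOf (S : Subgroup G)) = 4 ∧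
      omegaOne 2 ((S : Subgroup G) ⊓ pResidual 2 G) = omegaCenterOf (S : Subgroup G)) ∨
    IsCharacteristicTwoType
      (pResidual 2 G ⊔ omegaCenterOf (S : Subgroup G) : Subgroup G) := by
  have hH := res_even he hO' hO
  have hR := isSylowIn_inf_of_normal S (pResidual 2 G)
  have nH : normalizer (pResidual 2 G : Set G) = ⊤ := normalizer_eq_top _
  have nR : normalizer ((S : Subgroup G) : Set G) ≤
      normalizer (((S : Subgroup G) ⊓ pResidual 2 G : Subgroup G) : Set G) := fun n hn =>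
    inf_normalizer_le_normalizer_inf ⟨hn, nH ▸ mem_top n⟩
  obtain ⟨z, hz, z1⟩ := (Subgroup.bot_or_exists_ne_one _).resolve_left
    (MSS.inf_centralizer_ne_bot_of_resOf_le (ea_isPGroup (ea_oc _)) (le_normalizer.trans
      (nR.trans (normalizer_le_normalizer_oc _))) (MSS.resOf_le_of_isPGroup S.isPGroup' _)
      (oc_ne_bot hR.isPGroup fun e => hR.eq_bot_iff.1 e hH))
  have zR := oc_le _ hz.1
  have zZ : z ∈ omegaCenterOf (S : Subgroup G) := mem_oc.2 ⟨zR.1, hz.2, oc_sq hz.1⟩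
  have z2 := orderOf_two_of_ea (ea_oc _) zZ z1
  obtain ⟨n, hn⟩ := (ea_isPGroup (ea_oc (S : Subgroup G))).exists_card_eq
  by_cases h4 : 4 ≤ Nat.card (omegaCenterOf (S : Subgroup G))
  · by_cases hr : PRankLE 2 2 G
    · have c4 := le_antisymm (hr _ (ea_oc (S : Subgroup G)).1 (ea_oc (S : Subgroup G)).2) h4
      have h1 : ∀ t ∈ (S : Subgroup G), t * t = 1 → t ∈ omegaCenterOf (S : Subgroup G) :=
        fun t ht tt => by
          have hB := ea_sup (ea_oc (S : Subgroup G)) (ea_zpowers tt)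
            ((zpowers_le.2 ht).trans (le_centralizer_oc _))
          rw [eq_of_le_of_card_ge (le_sup_left : omegaCenterOf (S : Subgroup G) ≤ _ ⊔ zpowers t)
            ((hr _ hB.1 hB.2).trans h4)]
          exact mem_sup_right (mem_zpowers t)
      by_cases hZH : omegaCenterOf (S : Subgroup G) ≤ pResidual 2 G
      · exact Or.inr (Or.inr (Or.inl ⟨c4, le_antisymm ((closure_le _).2 fun t ht =>
          h1 t ht.1.1 (sq t ▸ ht.2)) fun t ht =>
            subset_closure ⟨⟨oc_le _ ht, hZH ht⟩, (sq t).trans (oc_sq ht)⟩⟩))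
      · refine Or.inr (Or.inl ⟨?_, fun h _ w hw hS => h1 _ hS (by
          rw [show h * w * h⁻¹ * (h * w * h⁻¹) = h * (w * w) * h⁻¹ by group, oc_sq hw.1]; group)⟩)
        have h2 := card_lt_of_lt (inf_lt_left.2 hZH)
        have h3 := card_dvd_of_le
          (inf_le_left : omegaCenterOf (S : Subgroup G) ⊓ pResidual 2 G ≤ _)
        have h5 := z2 ▸ orderOf_dvd_natCard (omegaCenterOf (S : Subgroup G) ⊓ pResidual 2 G)
          ⟨zZ, zR.2⟩
        have h6 : 0 < Nat.card (omegaCenterOf (S : Subgroup G) ⊓ pResidual 2 G : Subgroup G) :=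
          Nat.card_pos
        omega
    · rcases hC.se_of_four hO' hr S h4 with h | ⟨M, h⟩
      · have : (pResidual 2 G ⊔ omegaCenterOf (S : Subgroup G)).Normal := by
          rw [← normalizer_eq_top_iff, eq_top_iff, ← resOf_sup_sylowIn (isSylowIn_top S), resOf_top]
          exact sup_le (le_sup_left.trans le_normalizer) fun s hs => mem_normalizer_of_cj_le (by
            rw [cj_sup, cj_eq_of_normal, cj_eq_of_mem_centralizer (le_centralizer_oc _ hs)])
        exact Or.inr (Or.inr (Or.inr (hC.type_of_th le_sup_left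
          (hH.trans (card_dvd_of_le le_sup_left)) fun t _ => h t)))
      · exact Or.inl ⟨_, h.subgroupOf_normal _ hH⟩
  have c2 : Nat.card (omegaCenterOf (S : Subgroup G)) = 2 := by
    have h5 := z2 ▸ orderOf_dvd_natCard _ zZ
    have h6 : 0 < Nat.card (omegaCenterOf (S : Subgroup G)) := Nat.card_pos
    omega
  have hZz : omegaCenterOf (S : Subgroup G) = zpowers z := (eq_of_le_of_card_ge (zpowers_le.2 zZ)
    (by rw [c2, card_zpowers_two (oc_sq zZ) z1])).symm
  have hZH : omegaCenterOf (S : Subgroup G) ≤ pResidual 2 G := hZz ▸ zpowers_le.2 zR.2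
  rw [sup_eq_left.2 hZH, inf_eq_left.2 hZH]
  have oddH : ∀ X : Subgroup G, (Nat.card X).Coprime 2 → X ≤ pResidual 2 G →
      pResidual 2 G ≤ normalizer (X : Set G) → X = ⊥ := fun X h1 h2 h3 =>
    eq_bot_iff.2 ((le_ppCoreOf h2 h3 h1).trans (eq_bot_of_odd hO' (eq_top_iff.2
      (nH ▸ normalizer_le_normalizer_ppCoreOf 2 _)) (coprime_ppCoreOf _ _)).le)
  by_cases hr : ¬ PRankLE 2 2 (pResidual 2 G)
  · rcases (hC.sub _).conC.dichotomy (fun w _ => mem_sup_right (by
      rw [← resOf_subgroupOf, MSS.resOf_pResidual]; exact w.2)) hr with h | ⟨W, -, h⟩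
    · refine Or.inr (Or.inr (Or.inr (hC.type_of_th le_rfl hH fun t ht t2 => ?_)))
      rw [← map_th le_rfl ⟨t, ht⟩, eq_bot_iff, ← oddH _ (coprime_ppCoreOf 2 (pResidual 2 G))
        (map_subtype_le _) (le_normalizer.trans (normalizer_le_normalizer_ppCoreOf 2 _))]
      exact map_mono (h _ (by rw [← orderOf_coe, t2]))
    · exact Or.inl ⟨_, h⟩
  rw [not_not] at hr
  by_cases hw : ∀ h ∈ pResidual 2 G, ∀ w ∈ omegaCenterOf (S : Subgroup G),
      h * w * h⁻¹ ∈ (S : Subgroup G) → h * w * h⁻¹ ∈ omegaCenterOf (S : Subgroup G)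
  · exact Or.inr (Or.inl ⟨c2, hw⟩)
  push Not at hw
  obtain ⟨h, hh, w, hw, uS, uZ⟩ := hw
  obtain rfl : w = z := (eq_zpowers_of_card_two c2 zZ z1 hw).resolve_left fun e => by simp [e] at uZ
  have uH := (inferInstance : (pResidual 2 G).Normal).conj_mem _ zR.2 h
  have uz : h * w * h⁻¹ ≠ w := fun e => uZ (e.symm ▸ zZ)
  have hall : ∀ t ∈ (S : Subgroup G) ⊓ pResidual 2 G, orderOf t = 2 → IsConj t w := by
    intro t ht t2
    have t2' : orderOf (⟨t, ht.2⟩ : pResidual 2 G) = 2 := by rw [← orderOf_coe, t2]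
    have z2' : orderOf (⟨w, zR.2⟩ : pResidual 2 G) = 2 := by rw [← orderOf_coe, z2]
    have hzu : IsConj (h * w * h⁻¹) w := (isConj_iff.2 ⟨h, rfl⟩).symm
    by_cases hc : ∀ s ∈ (S : Subgroup G) ⊓ pResidual 2 G, s * (h * w * h⁻¹) = h * w * h⁻¹ * s
    · have h1 : ∀ t ∈ (S : Subgroup G) ⊓ pResidual 2 G, orderOf t = 2 →
          t = w ∨ t = h * w * h⁻¹ ∨ t = w * (h * w * h⁻¹) := fun t ht t2 => by
        simpa only [Subtype.ext_iff, coe_mul] using cases_of_rank hr (u := ⟨_, uH⟩) (t := ⟨t, ht.2⟩) z2'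
          (by rw [← orderOf_coe, orderOf_conj, z2]) (fun e => uz (congrArg Subtype.val e))
          (Subtype.ext (hc w zR)) (by rw [← orderOf_coe, t2]) (Subtype.ext (hz.2 t ht.1).symm)
          (Subtype.ext (hc t ht).symm)
      rcases h1 t ht t2 with rfl | rfl | rfl
      · exact IsConj.refl _
      · exact hzu
      · by_contra hcon
        refine uZ (mem_oc.2 ⟨uS, fun s hs => mul_inv_eq_iff_eq_mul.1 ?_,
          sq_of_two (by rw [orderOf_conj, z2])⟩)
        rcases h1 _ (mem_normalizer_conj (nR (le_normalizer hs)) ⟨uS, uH⟩)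
          (by rw [orderOf_conj, orderOf_conj, z2]) with e | e | e
        · exact absurd (Geo.conj_inj (e.trans (mul_inv_eq_iff_eq_mul.2 (hz.2 s hs)).symm)) uz
        · exact e
        · exact absurd ((isConj_iff.2 ⟨s, e⟩).symm.trans hzu) hcon
    · exact (pResidual 2 G).subtype.map_isConj (fusion_rank_two index_ne_two_res hr hR.toSylow
        (u := ⟨_, uH⟩) z2' zR (fun s hs => Subtype.ext (hz.2 s hs.1)) ⟨uS, uH⟩
        (fun e => uz (congrArg Subtype.val e)) (IsConj.symm (isConj_iff.2 ⟨⟨h, hh⟩, rfl⟩))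
        (fun e => hc fun s hs => congrArg Subtype.val (e ⟨s, hs.2⟩ hs)) t2')
  have hD : th w ≤ centralizer ((S : Subgroup G) : Set G) := by
    rw [← commutator_eq_bot_iff_le_centralizer, eq_bot_iff,
      ← (disjoint_of_coprime_natCard (coprime_of_odd S.isPGroup' (coprime_th w)).symm).eq_bot]
    refine commutator_le_inf_of_le_normalizer ((th_le w).trans ?_)
      fun s hs => C1_le_normalizer_th w (mem_C1.2 (hz.2 s hs))
    rwa [hZz, centralizer_zpowers_eq] at hZ
  have hth : ∀ t ∈ (S : Subgroup G) ⊓ pResidual 2 G, orderOf t = 2 → th t = th w := by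
    intro t ht t2
    obtain ⟨c, hc⟩ := isConj_iff.1 (hall t ht t2)
    refine (eq_of_le_of_card_ge ((le_inf le_rfl (hD.trans (centralizer_le_C1 ht.1))).trans
      (hC.bal_le z2 t2 (hz.2 t ht.1).symm)) ?_).symm
    rw [← hc, card_th_conj]
  by_cases h0 : th w = ⊥
  · refine Or.inr (Or.inr (Or.inr (hC.type_of_th le_rfl hH fun t ht t2 => ?_)))
    obtain ⟨g, -, hg⟩ := hR.exists_cj_le (isPGroup_zpowers_of_orderOf_eq t2) (zpowers_le.2 ht)
    exact cj_eq_bot.1 ((cj_th g t).trans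
      ((hth _ (hg (conj_mem_cj.2 (mem_zpowers t))) (by rw [orderOf_conj, t2])).trans h0))
  refine Or.inl ⟨(normalizer (th w : Set G)).subgroupOf _, SE.of_centralizer_normalizer
    (fun e => h0 (oddH _ (coprime_th w) (th_le_res w) (subgroupOf_eq_top.1 e))) hR.toSylow
    (fun n hn => cj_eq_self_iff.1 ((cj_th _ _).trans
      (hth _ (mem_normalizer_conj hn (x := ⟨w, zR.2⟩) zR) (by rw [orderOf_conj, z2]))))
    fun t ht t2 g hg => ?_⟩
  rw [mem_subgroupOf, ← hth t ht (by rw [orderOf_coe, t2])]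
  exact C1_le_normalizer_th _ (mem_C1.2 (congrArg Subtype.val (mem_C1.1 hg)))

end Cfsg.Lib.Ngrp
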